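import Mathlib

/-!
# Lengths of subnormal series

`SerTo H n`: there is a strictly increasing series of length `n` from the trivial subgroup to `H`
with each term normal in the next.  `compLen G` is the maximal length of such a series to `G`.
-/

set_option autoImplicit false

namespace Cfsg.Agent.H68.CompLen

open Subgroup
open scoped ArithmeticFunction.Omega

variable {G : Type*} [Group G]

/-- A subnormal series of length `n` from the trivial subgroup to `H`. -/
inductive SerTo : Subgroup G → ℕ → Prop
  | bot : SerTo ⊥ 0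
  | step {H K : Subgroup G} {n : ℕ} :
      SerTo H n → H < K → (H.subgroupOf K).Normal → SerTo K (n + 1)

theorem SerTo.le_cardFactors [Finite G] {H : Subgroup G} {n : ℕ} (h : SerTo H n) :
    n ≤ Ω (Nat.card H) := by
  induction h with
  | bot => exact Nat.zero_le _
  | @step H K n _ hlt _ ih =>
    have h1 : Nat.card H * H.relIndex K = Nat.card K := by
      have := Subgroup.card_mul_index (H.subgroupOf K)
      rw [Nat.card_congr (Subgroup.subgroupOfEquivOfLe hlt.le).toEquiv] at this
      exact this
    have h2 : H.relIndex K ≠ 1 := fun e => hlt.not_ge (Subgroup.relIndex_eq_one.1 e)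
    have h3 : H.relIndex K ≠ 0 := fun e => Nat.card_pos.ne' (by rw [← h1, e, mul_zero])
    rw [← h1, ArithmeticFunction.cardFactors_mul Nat.card_pos.ne' h3]
    have : 0 < Ω (H.relIndex K) :=
      ArithmeticFunction.cardFactors_pos_iff_one_lt.2 (by omega)
    omega

/-- The maximal length of a subnormal series of the group. -/
noncomputable def compLen (G : Type*) [Group G] : ℕ := sSup {n | SerTo (⊤ : Subgroup G) n}

theorem le_compLen [Finite G] {n : ℕ} (h : SerTo (⊤ : Subgroup G) n) : n ≤ compLen G :=
  le_csSup ⟨Ω (Nat.card (⊤ : Subgroup G)), fun _ hm => hm.le_cardFactors⟩ h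

theorem exists_serTo_top [Finite G] : ∃ n, SerTo (⊤ : Subgroup G) n := by
  by_cases h : (⊤ : Subgroup G) = ⊥
  · exact ⟨0, h ▸ SerTo.bot⟩
  · exact ⟨1, SerTo.step SerTo.bot (bot_lt_iff_ne_bot.2 h) inferInstance⟩

theorem serTo_compLen [Finite G] : SerTo (⊤ : Subgroup G) (compLen G) :=
  Nat.sSup_mem (exists_serTo_top (G := G))
    ⟨Ω (Nat.card (⊤ : Subgroup G)), fun _ hm => hm.le_cardFactors⟩

theorem compLen_le_cardFactors [Finite G] : compLen G ≤ Ω (Nat.card G) := by
  have := (serTo_compLen (G := G)).le_cardFactors
  rwa [Subgroup.card_top] at this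

theorem normal_subgroupOf_map {G' : Type*} [Group G'] (f : G →* G') {H K : Subgroup G}
    (hHK : H ≤ K) (hn : (H.subgroupOf K).Normal) : ((H.map f).subgroupOf (K.map f)).Normal := by
  rw [Subgroup.normal_subgroupOf_iff (Subgroup.map_mono hHK)]
  rintro _ _ ⟨a, ha, rfl⟩ ⟨b, hb, rfl⟩
  exact ⟨b * a * b⁻¹, (Subgroup.normal_subgroupOf_iff hHK).1 hn a b ha hb, by simp⟩

theorem normal_subgroupOf_comap {G' : Type*} [Group G'] (f : G' →* G) {H K : Subgroup G}
    (hHK : H ≤ K) (hn : (H.subgroupOf K).Normal) :
    ((H.comap f).subgroupOf (K.comap f)).Normal := by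
  rw [Subgroup.normal_subgroupOf_iff (Subgroup.comap_mono hHK)]
  intro a b ha hb
  simp only [Subgroup.mem_comap, map_mul, map_inv]
  exact (Subgroup.normal_subgroupOf_iff hHK).1 hn _ _ ha hb

theorem SerTo.map_injective {G' : Type*} [Group G'] {f : G →* G'} (hf : Function.Injective f)
    {H : Subgroup G} {n : ℕ} (h : SerTo H n) : SerTo (H.map f) n := by
  induction h with
  | bot => rw [Subgroup.map_bot]; exact SerTo.bot
  | @step H K n _ hlt hn ih =>
    exact ih.step ((Subgroup.map_lt_map_iff_of_injective hf).2 hlt)
      (normal_subgroupOf_map f hlt.le hn)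

theorem compLen_congr {G' : Type*} [Group G'] [Finite G] [Finite G'] (e : G ≃* G') :
    compLen G = compLen G' := by
  refine le_antisymm (le_compLen ?_) (le_compLen ?_)
  · have := (serTo_compLen (G := G)).map_injective (f := e.toMonoidHom) e.injective
    rwa [Subgroup.map_top_of_surjective _ e.surjective] at this
  · have := (serTo_compLen (G := G')).map_injective (f := e.symm.toMonoidHom) e.symm.injective
    rwa [Subgroup.map_top_of_surjective _ e.symm.surjective] at this

/-- A series splits along the kernel and the image of a homomorphism. -/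
theorem SerTo.split {G' : Type*} [Group G'] (f : G →* G') {H : Subgroup G} {n : ℕ}
    (h : SerTo H n) :
    ∃ a b, n ≤ a + b ∧ SerTo (H.subgroupOf f.ker) a ∧ SerTo (H.map f) b := by
  induction h with
  | bot =>
    refine ⟨0, 0, le_rfl, ?_, ?_⟩
    · rw [Subgroup.bot_subgroupOf]; exact SerTo.bot
    · rw [Subgroup.map_bot]; exact SerTo.bot
  | @step H K n _ hlt hn ih =>
    obtain ⟨a, b, hab, hA, hB⟩ := ih
    have hn1 : ((H.subgroupOf f.ker).subgroupOf (K.subgroupOf f.ker)).Normal :=
      normal_subgroupOf_comap f.ker.subtype hlt.le hn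
    have hn2 := normal_subgroupOf_map f hlt.le hn
    rcases (Subgroup.map_mono (f := f) hlt.le).lt_or_eq with hB' | hB'
    · rcases (Subgroup.comap_mono (f := f.ker.subtype) hlt.le).lt_or_eq with hA' | hA'
      · exact ⟨a + 1, b + 1, by omega, hA.step hA' hn1, hB.step hB' hn2⟩
      · exact ⟨a, b + 1, by omega,
          (show H.subgroupOf f.ker = K.subgroupOf f.ker from hA') ▸ hA, hB.step hB' hn2⟩
    · refine ⟨a + 1, b, by omega, hA.step ?_ hn1, hB' ▸ hB⟩
      refine lt_of_le_of_ne (Subgroup.comap_mono hlt.le) fun hA' => hlt.not_ge fun x hx => ?_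
      obtain ⟨y, hy, hyx⟩ := (hB'.symm ▸ Subgroup.mem_map_of_mem f hx : f x ∈ H.map f)
      have hk : y⁻¹ * x ∈ f.ker := by simp [MonoidHom.mem_ker, hyx]
      have h3 : (⟨y⁻¹ * x, hk⟩ : f.ker) ∈ K.subgroupOf f.ker :=
        Subgroup.mem_subgroupOf.2 (mul_mem (inv_mem (hlt.le hy)) hx)
      rw [← show H.subgroupOf f.ker = K.subgroupOf f.ker from hA'] at h3
      have := mul_mem hy (Subgroup.mem_subgroupOf.1 h3)
      simpa using this

theorem compLen_le_ker_add_range {G' : Type*} [Group G'] [Finite G] (f : G →* G') :
    compLen G ≤ compLen f.ker + compLen f.range := by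
  obtain ⟨a, b, hab, hA, hB⟩ := (serTo_compLen (G := G)).split f.rangeRestrict
  rw [Subgroup.map_top_of_surjective _ f.rangeRestrict_surjective] at hB
  rw [Subgroup.top_subgroupOf] at hA
  have : Finite f.range := Finite.of_surjective _ f.rangeRestrict_surjective
  have h1 := le_compLen hB
  have h2 := le_compLen hA
  rw [compLen_congr (MulEquiv.subgroupCongr f.ker_rangeRestrict)] at h2
  omega

/-- Series of a kernel and of the image concatenate. -/
theorem compLen_ker_add_le {G' : Type*} [Group G'] [Finite G] [Finite G'] (f : G →* G')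
    (hf : Function.Surjective f) : compLen f.ker + compLen G' ≤ compLen G := by
  suffices ∀ (K : Subgroup G') (b : ℕ), SerTo K b → SerTo (K.comap f) (compLen f.ker + b) by
    have h := this ⊤ _ serTo_compLen
    rw [Subgroup.comap_top] at h
    exact le_compLen h
  intro K b h
  induction h with
  | bot =>
    rw [MonoidHom.comap_bot, add_zero]
    have h := (serTo_compLen (G := f.ker)).map_injective f.ker.subtype_injective
    rwa [← MonoidHom.range_eq_map, Subgroup.range_subtype] at h
  | @step H K n _ hlt hn ih =>
    rw [← add_assoc]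
    exact ih.step ((Subgroup.comap_lt_comap_of_surjective hf).2 hlt)
      (normal_subgroupOf_comap f hlt.le hn)

theorem compLen_le_one_of_simple [Finite G] [IsSimpleGroup G] : compLen G ≤ 1 := by
  have h := serTo_compLen (G := G)
  generalize compLen G = n at h ⊢
  generalize hK : (⊤ : Subgroup G) = K at h
  cases h with
  | bot => omega
  | @step H _ m hH hlt hn =>
    subst hK
    have hHn : H.Normal :=
      ⟨fun a ha b => (Subgroup.normal_subgroupOf_iff le_top).1 hn a b ha trivial⟩
    have hbot : H = ⊥ := hHn.eq_bot_or_eq_top.resolve_right hlt.ne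
    subst hbot
    cases hH with
    | bot => omega
    | step _ h2 _ => exact absurd h2 not_lt_bot

theorem compLen_pi_le {T : Type*} [Group T] [Finite T] [IsSimpleGroup T] :
    ∀ k : ℕ, compLen (Fin k → T) ≤ k
  | 0 => by
    have h := compLen_le_cardFactors (G := Fin 0 → T)
    simpa using h
  | k + 1 => by
    let f : (Fin (k + 1) → T) →* T := Pi.evalMonoidHom (fun _ => T) 0
    have hf : Function.Surjective f := fun t => ⟨fun _ => t, rfl⟩
    have h1 := compLen_le_ker_add_range f
    have e1 : compLen f.range = compLen T :=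
      compLen_congr ((MulEquiv.subgroupCongr (MonoidHom.range_eq_top.2 hf)).trans Subgroup.topEquiv)
    have e : f.ker ≃* (Fin k → T) :=
      { toFun := fun x i => x.1 i.succ
        invFun := fun y => ⟨Fin.cons 1 y, by simp [f, MonoidHom.mem_ker]⟩
        left_inv := fun x => by
          refine Subtype.ext (funext fun i => Fin.cases ?_ ?_ i)
          · exact (MonoidHom.mem_ker.1 x.2).symm.trans (by simp [f])
          · intro j; simp
        right_inv := fun y => by funext i; simp
        map_mul' := fun _ _ => rfl }
    rw [e1, compLen_congr e] at h1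
    have := compLen_pi_le (T := T) k
    have := compLen_le_one_of_simple (G := T)
    omega

end Cfsg.Agent.H68.CompLen
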