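import Cfsg.Agent.H68.CompLen.Basic

/-!
# Crude bounds: groups acting faithfully by automorphisms, and some numerics
-/

set_option autoImplicit false

namespace Cfsg.Agent.H68.CompLen

open Subgroup
open scoped ArithmeticFunction.Omega

theorem two_pow_cardFactors_le : ∀ {m : ℕ}, m ≠ 0 → 2 ^ Ω m ≤ m := by
  intro m
  induction m using Nat.recOnMul with
  | zero => simp
  | one => simp
  | prime p hp => intro _; simp [ArithmeticFunction.cardFactors_apply_prime hp, hp.two_le]
  | mul a b ha hb =>
    intro h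
    rw [mul_ne_zero_iff] at h
    rw [ArithmeticFunction.cardFactors_mul h.1 h.2, pow_add]
    exact Nat.mul_le_mul (ha h.1) (hb h.2)

theorem cardFactors_le_log {m : ℕ} (hm : m ≠ 0) : Ω m ≤ Nat.log 2 m :=
  Nat.le_log_of_pow_le one_lt_two (two_pow_cardFactors_le hm)

theorem exists_gens {N : Type*} [Group N] [Finite N] :
    ∃ L : List N, L.length ≤ Ω (Nat.card N) ∧ Subgroup.closure {x | x ∈ L} = ⊤ := by
  suffices ∀ k, ∀ H : Subgroup N, Ω H.index ≤ k →
      ∃ L : List N, L.length ≤ k ∧ H ⊔ Subgroup.closure {x | x ∈ L} = ⊤ by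
    obtain ⟨L, h1, h2⟩ := this (Ω (Nat.card N)) ⊥ (by rw [Subgroup.index_bot])
    exact ⟨L, h1, by simpa using h2⟩
  intro k
  induction k with
  | zero =>
    intro H hH
    refine ⟨[], le_rfl, ?_⟩
    have h1 : H.index = 1 := by
      have h0 := H.index_ne_zero_of_finite
      by_contra hne
      have := (ArithmeticFunction.cardFactors_pos_iff_one_lt (n := H.index)).2 (by omega)
      omega
    rw [Subgroup.index_eq_one.1 h1, top_sup_eq]
  | succ k ih =>
    intro H hH
    by_cases hT : H = ⊤
    · exact ⟨[], Nat.zero_le _, by rw [hT, top_sup_eq]⟩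
    obtain ⟨x, hx⟩ : ∃ x, x ∉ H := not_forall.1 (mt (Subgroup.eq_top_iff' H).2 hT)
    set K := H ⊔ Subgroup.zpowers x with hKdef
    have hK : H < K := lt_of_le_of_ne le_sup_left fun e =>
      hx (e ▸ Subgroup.mem_sup_right (Subgroup.mem_zpowers x))
    have h1 : H.relIndex K * K.index = H.index := Subgroup.relIndex_mul_index hK.le
    have h2 : H.relIndex K ≠ 0 := fun e =>
      H.index_ne_zero_of_finite (by rw [← h1, e, zero_mul])
    have h3 : H.relIndex K ≠ 1 := fun e => hK.not_ge (Subgroup.relIndex_eq_one.1 e)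
    have h4 : 0 < Ω (H.relIndex K) :=
      ArithmeticFunction.cardFactors_pos_iff_one_lt.2 (by omega)
    rw [← h1, ArithmeticFunction.cardFactors_mul h2 K.index_ne_zero_of_finite] at hH
    obtain ⟨L, hL, hL'⟩ := ih K (by omega)
    refine ⟨x :: L, by simpa using hL, ?_⟩
    rw [eq_top_iff, ← hL', hKdef]
    refine sup_le (sup_le le_sup_left ?_) ?_
    · rw [Subgroup.zpowers_le]
      exact Subgroup.mem_sup_right (Subgroup.subset_closure List.mem_cons_self)
    · exact le_sup_of_le_right (Subgroup.closure_mono fun y hy => List.mem_cons_of_mem _ hy)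

theorem cardFactors_le_of_base {X β : Type*} [Group X] [Finite X] [MulAction X β] (m : ℕ) :
    ∀ (L : List β) (H : Subgroup X),
      (∀ e ∈ L, Nat.card (MulAction.orbit X e) ≤ m) →
      (∀ x ∈ H, (∀ e ∈ L, x • e = e) → x = 1) →
      Ω (Nat.card H) ≤ L.length * Nat.log 2 m := by
  intro L
  induction L with
  | nil =>
    intro H _ h2
    have : H = ⊥ := (Subgroup.eq_bot_iff_forall H).2 fun x hx => h2 x hx (by simp)
    simp [this]
  | cons e L ih =>
    intro H h1 h2
    set S := H ⊓ MulAction.stabilizer X e with hS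
    have hle : S ≤ H := inf_le_left
    have hc : Nat.card S * S.relIndex H = Nat.card H := by
      have := Subgroup.card_mul_index (S.subgroupOf H)
      rwa [Nat.card_congr (Subgroup.subgroupOfEquivOfLe hle).toEquiv] at this
    have hidx : S.relIndex H ≤ m := by
      have h3 : S.relIndex H = Nat.card (MulAction.orbit H e) := by
        rw [Subgroup.relIndex, Nat.card_coe_set_eq, ← MulAction.index_stabilizer]
        congr 1
        ext x
        simp [hS, Subgroup.mem_subgroupOf, MulAction.mem_stabilizer_iff, Subgroup.smul_def]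
      rw [h3]
      have hfin : Finite (MulAction.orbit X e) := (Set.finite_range _).to_subtype
      refine le_trans ?_ (h1 e List.mem_cons_self)
      refine Nat.card_mono (Set.finite_range _) ?_
      rintro _ ⟨h, rfl⟩
      exact ⟨(h : X), rfl⟩
    have hne : S.relIndex H ≠ 0 := fun h0 => Nat.card_pos.ne' (by rw [← hc, h0, mul_zero])
    have hi := ih S (fun a ha => h1 a (List.mem_cons_of_mem _ ha))
      (fun x hx hxL => h2 x hx.1 fun a ha => by
        rcases List.mem_cons.1 ha with rfl | ha
        · exact hx.2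
        · exact hxL a ha)
    rw [← hc, ArithmeticFunction.cardFactors_mul Nat.card_pos.ne' hne, List.length_cons, add_mul,
      one_mul]
    have := (cardFactors_le_log hne).trans (Nat.log_mono_right hidx)
    omega

/-- A group acting faithfully by automorphisms on `N` has few prime factors. -/
theorem cardFactors_le_of_mulAut {X N : Type*} [Group X] [Finite X] [Group N] [Finite N]
    (φ : X →* MulAut N) (hφ : Function.Injective φ) (hN : 2 ≤ Nat.card N) :
    Ω (Nat.card X) ≤ Ω (Nat.card N) * Nat.log 2 (Nat.card N - 1) := by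
  obtain ⟨L, hL, hgen⟩ := exists_gens (N := N)
  let _ : MulAction X N := MulAction.compHom N φ
  have h := cardFactors_le_of_base (X := X) (Nat.card N - 1) L ⊤ ?_ ?_
  · rw [Subgroup.card_top] at h
    exact h.trans (Nat.mul_le_mul hL le_rfl)
  · intro e _
    rw [Nat.card_coe_set_eq]
    by_cases he : e = 1
    · subst he
      have : MulAction.orbit X (1 : N) ⊆ {1} := by
        rintro _ ⟨x, rfl⟩
        exact map_one (φ x)
      have := Set.ncard_le_ncard this
      simp only [Set.ncard_singleton] at this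
      omega
    · have hs : MulAction.orbit X e ⊆ ({1} : Set N)ᶜ := by
        rintro _ ⟨x, rfl⟩ h1
        exact he ((φ x).injective ((Set.mem_singleton_iff.1 h1).trans (map_one (φ x)).symm))
      refine (Set.ncard_le_ncard hs).trans (le_of_eq ?_)
      rw [Set.ncard_compl, Set.ncard_singleton]
  · intro x _ hx
    apply hφ
    rw [map_one]
    have h' : (φ x).toMonoidHom = MonoidHom.id N :=
      MonoidHom.eq_of_eqOn_dense hgen fun e he => hx e he
    ext y
    exact DFunLike.congr_fun h' y

theorem three_mul_sq_le : ∀ d : ℕ, 2 ≤ d → 3 * d ^ 2 + 4 ≤ 4 * 2 ^ d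
  | 0, h => by omega
  | 1, h => by omega
  | 2, _ => by norm_num
  | 3, _ => by norm_num
  | d + 4, _ => by
    have key : ∀ e : ℕ, 3 * (e + 4) ^ 2 + 4 ≤ 4 * 2 ^ (e + 4) := by
      intro e
      induction e with
      | zero => norm_num
      | succ e ih =>
        have : 2 ^ (e + 1 + 4) = 2 * 2 ^ (e + 4) := by ring
        rw [this]
        have : 3 * (e + 1 + 4) ^ 2 + 4 ≤ 2 * (3 * (e + 4) ^ 2 + 4) := by ring_nf; omega
        omega
    exact key d

theorem abelian_numeric {n d p : ℕ} (hp : p.Prime) (hn : n = p ^ d) (hd : 2 ≤ d) :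
    3 * (d + d * Nat.log 2 (n - 1)) + 4 ≤ 4 * n := by
  set L := Nat.log 2 (n - 1) with hLdef
  have hn2 : 2 ^ d ≤ n := hn ▸ Nat.pow_le_pow_left hp.two_le d
  have hn4 : 4 ≤ n := le_trans (by
    calc (4 : ℕ) = 2 ^ 2 := rfl
      _ ≤ 2 ^ d := Nat.pow_le_pow_right two_pos hd) hn2
  have hL1 : 2 ^ L ≤ n - 1 := Nat.pow_log_le_self 2 (by omega)
  by_cases hp2 : p = 2
  · subst hp2
    have hL : L < d := Nat.log_lt_of_lt_pow (by omega) (by omega)
    have h1 : d * L + d ≤ d ^ 2 := by rw [sq]; nlinarith
    have := three_mul_sq_le d hd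
    omega
  · have hn3 : 3 ^ d ≤ n := hn ▸ Nat.pow_le_pow_left (by have := hp.two_le; omega) d
    have hub : n ≤ 2 ^ (L + 1) := by
      have := Nat.lt_pow_succ_log_self one_lt_two (n - 1)
      simp only [Nat.succ_eq_add_one, ← hLdef] at this
      omega
    rcases le_or_gt 4 L with h4 | h4
    · have hdL : d ≤ L := by
        by_contra hcon
        have h1 : 3 ^ (L + 1) ≤ 2 ^ (L + 1) :=
          (Nat.pow_le_pow_right (by norm_num) (by omega)).trans (hn3.trans hub)
        exact absurd h1 (Nat.pow_lt_pow_left (by norm_num) (by omega)).not_ge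
      have key : ∀ e : ℕ, 3 * ((e + 4) + (e + 4) * (e + 4)) ≤ 4 * 2 ^ (e + 4) := by
        intro e
        induction e with
        | zero => norm_num
        | succ e ih =>
          have : 2 ^ (e + 1 + 4) = 2 * 2 ^ (e + 4) := by ring
          rw [this]
          nlinarith
      obtain ⟨e, he⟩ := Nat.exists_eq_add_of_le' h4
      have := key e
      rw [← he] at this
      have : d + d * L ≤ L + L * L := by nlinarith
      omega
    · have hn16 : n ≤ 16 := hub.trans (by
        calc 2 ^ (L + 1) ≤ 2 ^ 4 := Nat.pow_le_pow_right two_pos (by omega)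
          _ = 16 := rfl)
      have hd2 : d = 2 := by
        by_contra hcon
        have : 3 ^ 3 ≤ 3 ^ d := Nat.pow_le_pow_right (by norm_num) (by omega)
        omega
      subst hd2
      have : 9 ≤ n := hn3
      nlinarith

theorem nonabelian_numeric {n M : ℕ} (hn : 3600 ≤ n) (hM : M ≤ 2 * Nat.log 2 n + 1) :
    3 * (M + M * M) + 4 ≤ 4 * n := by
  set L := Nat.log 2 n with hLdef
  have hL : 9 ≤ L := Nat.le_log_of_pow_le one_lt_two (by norm_num; omega)
  have hL1 : 2 ^ L ≤ n := Nat.pow_log_le_self 2 (by omega)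
  have key : ∀ e : ℕ, 12 * (e + 9) * (e + 9) + 18 * (e + 9) + 10 ≤ 4 * 2 ^ (e + 9) := by
    intro e
    induction e with
    | zero => norm_num
    | succ e ih =>
      have : 2 ^ (e + 1 + 9) = 2 * 2 ^ (e + 9) := by ring
      rw [this]
      nlinarith
  obtain ⟨e, he⟩ := Nat.exists_eq_add_of_le' hL
  have := key e
  rw [← he] at this
  nlinarith

end Cfsg.Agent.H68.CompLen
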