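import Cfsg.Agent.H68.CompLen.Primitive

/-!
# Composition length of a permutation group is at most four thirds of (degree minus orbits)
-/

set_option autoImplicit false

namespace Cfsg.Agent.H68.CompLen

open Subgroup

universe u v

/-- The bound for a group acting faithfully. -/
def Bound (G : Type u) (X : Type v) [Group G] [MulAction G X] : Prop :=
  3 * compLen G + 4 * Nat.card (Quotient (MulAction.orbitRel G X)) ≤ 4 * Nat.card X

/-- The bound in degree `n` for subgroups of a symmetric group. -/
def BoundAt (n : ℕ) : Prop :=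
  ∀ (X : Type v) [Finite X] (G : Subgroup (Equiv.Perm X)), Nat.card X = n → Bound G X

variable {G : Type u} [Group G] [Finite G] {X : Type v} [Finite X] [MulAction G X]

theorem orbits_le_card : Nat.card (Quotient (MulAction.orbitRel G X)) ≤ Nat.card X :=
  Nat.card_le_card_of_surjective _ Quotient.mk_surjective

/-- The bound transfers along the permutation representation. -/
theorem bound_range {n : ℕ} (h : BoundAt.{v} n) (hX : Nat.card X = n) :
    3 * compLen (MulAction.toPermHom G X).range +
      4 * Nat.card (Quotient (MulAction.orbitRel G X)) ≤ 4 * Nat.card X := by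
  have h' : Bound (MulAction.toPermHom G X).range X := h X _ hX
  unfold Bound at h'
  have e : MulAction.orbitRel (MulAction.toPermHom G X).range X = MulAction.orbitRel G X := by
    refine Setoid.ext fun a b => ⟨?_, ?_⟩
    · rintro ⟨⟨_, g, rfl⟩, hg⟩
      exact ⟨g, hg⟩
    · rintro ⟨g, hg⟩
      exact ⟨⟨_, g, rfl⟩, hg⟩
  rwa [e] at h'

theorem bound_of_boundAt [FaithfulSMul G X] {n : ℕ} (h : BoundAt.{v} n) (hX : Nat.card X = n) :
    Bound G X := by
  unfold Bound
  rw [compLen_congr (MonoidHom.ofInjective (f := MulAction.toPermHom G X) MulAction.toPerm_injective)]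
  exact bound_range h hX

/-- Intransitive groups, from smaller degrees. -/
theorem bound_intransitive [FaithfulSMul G X] (ih : ∀ m < Nat.card X, BoundAt.{v} m)
    (h2 : 2 ≤ Nat.card (Quotient (MulAction.orbitRel G X))) : Bound G X := by
  classical
  have hne : Nonempty X := by
    by_contra hem
    rw [not_nonempty_iff] at hem
    have := orbits_le_card (G := G) (X := X)
    have : Nat.card X = 0 := Nat.card_of_isEmpty
    omega
  obtain ⟨a⟩ := hne
  let O : SubMulAction G X :=
    ⟨MulAction.orbit G a, fun g _ hx => by
      obtain ⟨h, rfl⟩ := hx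
      exact ⟨g * h, mul_smul g h a⟩⟩
  let B : SubMulAction G X :=
    ⟨(MulAction.orbit G a)ᶜ, fun g x hx hgx => hx (by
      obtain ⟨h, hh⟩ := hgx
      exact ⟨g⁻¹ * h, by
        show (g⁻¹ * h) • a = x
        rw [mul_smul, show h • a = g • x from hh, inv_smul_smul]⟩)⟩
  have hcard : Nat.card O + Nat.card B = Nat.card X := by
    show Nat.card ↥(MulAction.orbit G a) + Nat.card ↥(MulAction.orbit G a)ᶜ = _
    rw [Nat.card_coe_set_eq, Nat.card_coe_set_eq, Set.ncard_add_ncard_compl]
  have hOne : 0 < Nat.card O :=
    Nat.card_pos_iff.2 ⟨⟨⟨a, MulAction.mem_orbit_self a⟩⟩, inferInstance⟩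
  have hsurj : Nat.card (Quotient (MulAction.orbitRel G X)) ≤
      Nat.card (Option (Quotient (MulAction.orbitRel (MulAction.toPermHom G O).ker B))) := by
    refine Nat.card_le_card_of_surjective (fun o => o.elim (Quotient.mk _ a)
      (fun q => Quotient.liftOn' q (fun x => Quotient.mk _ (x : X)) ?_)) ?_
    · rintro x y ⟨g, rfl⟩
      exact Quotient.sound ⟨(g : G), rfl⟩
    · intro q
      induction q using Quotient.inductionOn with
      | h x =>
        by_cases hx : x ∈ MulAction.orbit G a
        · exact ⟨none, Quotient.sound (MulAction.mem_orbit_symm.1 hx)⟩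
        · exact ⟨some (Quotient.mk _ (⟨x, hx⟩ : B)), rfl⟩
  rw [Finite.card_option] at hsurj
  have hBpos : 0 < Nat.card B := by
    have := orbits_le_card (G := (MulAction.toPermHom G O).ker) (X := B)
    omega
  have hOtr : 1 ≤ Nat.card (Quotient (MulAction.orbitRel G O)) :=
    Nat.card_pos_iff.2 ⟨⟨Quotient.mk _ ⟨a, MulAction.mem_orbit_self a⟩⟩, inferInstance⟩
  have hfaith : FaithfulSMul (MulAction.toPermHom G O).ker B := by
    refine ⟨fun {n₁ n₂} h => ?_⟩
    refine Subtype.ext (eq_of_smul_eq_smul (α := X) fun x => ?_)
    by_cases hx : x ∈ MulAction.orbit G a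
    · have e1 := Equiv.Perm.congr_fun (MonoidHom.mem_ker.1 n₁.2) (⟨x, hx⟩ : O)
      have e2 := Equiv.Perm.congr_fun (MonoidHom.mem_ker.1 n₂.2) (⟨x, hx⟩ : O)
      have := congrArg Subtype.val (e1.trans e2.symm)
      simpa using this
    · exact congrArg Subtype.val (h ⟨x, hx⟩)
  have h1 := compLen_le_ker_add_range (MulAction.toPermHom G O)
  have h3 := bound_range (G := G) (X := O) (ih (Nat.card O) (by omega)) rfl
  have h4 := bound_of_boundAt (G := (MulAction.toPermHom G O).ker) (X := B)
    (ih (Nat.card B) (by omega)) rfl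
  unfold Bound at h4 ⊢
  omega

theorem boundAt (n : ℕ) : BoundAt.{v} n := by
  induction n using Nat.strong_induction_on with
  | _ n ih =>
    intro X hfin G hX
    subst hX
    rcases le_or_gt 2 (Nat.card (Quotient (MulAction.orbitRel G X))) with h2 | h2
    · exact bound_intransitive ih h2
    rcases le_or_gt (Nat.card X) 1 with hn | hn
    · have : Subsingleton X := Finite.card_le_one_iff_subsingleton.1 hn
      have : Subsingleton G := ⟨fun a b => Subtype.ext (Equiv.ext fun _ => Subsingleton.elim _ _)⟩
      have hc : compLen G = 0 := by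
        have := compLen_le_cardFactors (G := G)
        rw [Nat.card_of_subsingleton (1 : G), ArithmeticFunction.cardFactors_one] at this
        omega
      have := orbits_le_card (G := G) (X := X)
      unfold Bound
      omega
    have hsub : Subsingleton (Quotient (MulAction.orbitRel G X)) :=
      Finite.card_le_one_iff_subsingleton.1 (by omega)
    have htr : MulAction.IsPretransitive G X :=
      (MulAction.pretransitive_iff_subsingleton_quotient G X).2 hsub
    have hne : Nonempty X := (Nat.card_pos_iff.1 (by omega)).1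
    obtain ⟨α⟩ := hne
    have horb : Nat.card (Quotient (MulAction.orbitRel G X)) = 1 :=
      le_antisymm (by omega) (Nat.card_pos_iff.2 ⟨⟨Quotient.mk _ α⟩, inferInstance⟩)
    by_cases hprim : MulAction.IsPreprimitive G X
    · have hA2 : 2 ≤ Nat.card (Quotient (MulAction.orbitRel (MulAction.stabilizer G α) X)) := by
        have : Nontrivial X := Finite.one_lt_card_iff_nontrivial.1 hn
        obtain ⟨β, hβ⟩ := exists_ne α
        refine Finite.one_lt_card_iff_nontrivial.2 ⟨Quotient.mk _ β, Quotient.mk _ α, fun h => hβ ?_⟩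
        obtain ⟨g, rfl⟩ := Quotient.exact h
        exact g.2
      have hA := bound_intransitive (G := MulAction.stabilizer G α) ih hA2
      unfold Bound at hA ⊢
      have := primitive_bound (G := G) (Ω := X) hn α (by omega)
      omega
    obtain ⟨B₀, hB₀, hB₁, hB₂⟩ : ∃ B : Set X,
        MulAction.IsBlock G B ∧ ¬ B.Subsingleton ∧ B ≠ Set.univ := by
      by_contra hcon
      push Not at hcon
      exact hprim ⟨fun {B} hB => or_iff_not_imp_left.2 fun h => hcon B hB (Set.not_subsingleton_iff.1 h)⟩
    have hBne : B₀.Nonempty := by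
      rcases B₀.eq_empty_or_nonempty with h | h
      · exact absurd (h ▸ Set.subsingleton_empty) hB₁
      · exact h
    open scoped Pointwise in
    let ψ := MulAction.toPermHom G (MulAction.orbit G B₀)
    open scoped Pointwise in
    have hmul := hB₀.ncard_block_mul_ncard_orbit_eq hBne
    open scoped Pointwise in
    have hb2 : 2 ≤ (MulAction.orbit G B₀).ncard := by
      by_contra hb
      apply hB₂
      rw [Set.eq_univ_iff_forall]
      intro x
      obtain ⟨y, hy⟩ := hBne
      obtain ⟨g, rfl⟩ := MulAction.exists_smul_eq G y x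
      have hg : g • B₀ = B₀ := (Set.ncard_le_one_iff (Set.toFinite _)).1 (by omega)
        (MulAction.mem_orbit B₀ g) (MulAction.mem_orbit_self B₀)
      exact hg ▸ Set.smul_mem_smul_set hy
    open scoped Pointwise in
    have hker : (MulAction.orbit G B₀).ncard ≤
        Nat.card (Quotient (MulAction.orbitRel ψ.ker X)) := by
      have hex : ∀ x : X, ∃ B ∈ MulAction.orbit G B₀, x ∈ B := fun x => by
        obtain ⟨y, hy⟩ := hBne
        obtain ⟨g, rfl⟩ := MulAction.exists_smul_eq G y x
        exact ⟨g • B₀, MulAction.mem_orbit B₀ g, Set.smul_mem_smul_set hy⟩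
      choose F hF hxF using hex
      have huniq : ∀ (x : X) (B : Set X), B ∈ MulAction.orbit G B₀ → x ∈ B → F x = B := by
        intro x B hB hx
        obtain ⟨g, rfl⟩ := hB
        obtain ⟨g', hg'⟩ := hF x
        have hg'' : g' • B₀ = F x := hg'
        rw [← hg'']
        by_contra hne
        exact Set.disjoint_left.1 (hB₀ (g₁ := g') (g₂ := g) hne)
          (hg''.symm ▸ hxF x) hx
      rw [← Nat.card_coe_set_eq]
      refine Nat.card_le_card_of_surjective (fun q => Quotient.liftOn' q
        (fun x => (⟨F x, hF x⟩ : MulAction.orbit G B₀)) ?_) ?_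
      · rintro x y ⟨g, rfl⟩
        refine Subtype.ext (huniq _ _ (hF y) ?_)
        have hfix := congrArg Subtype.val
          (Equiv.Perm.congr_fun (MonoidHom.mem_ker.1 g.2) (⟨F y, hF y⟩ : MulAction.orbit G B₀))
        have hfix' : (g : G) • F y = F y := hfix
        have hmem := Set.smul_mem_smul_set (a := (g : G)) (hxF y)
        rw [hfix'] at hmem
        exact hmem
      · rintro ⟨B, hB⟩
        obtain ⟨g, hg⟩ := id hB
        obtain ⟨y, hy⟩ := hBne
        have hg' : g • B₀ = B := hg
        exact ⟨Quotient.mk'' (g • y),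
          Subtype.ext (huniq _ _ hB (hg' ▸ Set.smul_mem_smul_set hy))⟩
    open scoped Pointwise in
    have h2B : 2 ≤ B₀.ncard := by
      rw [Set.not_subsingleton_iff] at hB₁
      exact Set.one_lt_ncard_iff_nontrivial.2 hB₁
    open scoped Pointwise in
    have hblt : (MulAction.orbit G B₀).ncard < Nat.card X := by
      rw [← hmul]
      exact lt_mul_of_one_lt_left (by omega) (by omega)
    open scoped Pointwise in
    have h1 := compLen_le_ker_add_range ψ
    open scoped Pointwise in
    have h3 := bound_range (G := G) (X := MulAction.orbit G B₀) (ih _ hblt)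
      (Nat.card_coe_set_eq _)
    open scoped Pointwise in
    have h5 : 1 ≤ Nat.card (Quotient (MulAction.orbitRel G (MulAction.orbit G B₀))) :=
      Nat.card_pos_iff.2 ⟨⟨Quotient.mk _ ⟨B₀, MulAction.mem_orbit_self B₀⟩⟩, inferInstance⟩
    have h4 := bound_intransitive (G := ψ.ker) (X := X) ih (by omega)
    simp only [ψ] at h1 h4 hker
    unfold Bound at h4 ⊢
    rw [Nat.card_coe_set_eq] at h3
    omega

theorem compLen_bound (G : Type u) [Group G] [Finite G] (X : Type v) [Finite X] [MulAction G X]
    [FaithfulSMul G X] :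
    3 * compLen G ≤ 4 * (Nat.card X - Nat.card (Quotient (MulAction.orbitRel G X))) := by
  have h := bound_of_boundAt (G := G) (X := X) (boundAt _) rfl
  unfold Bound at h
  omega

/-- A chain given as a function is a series. -/
theorem serTo_of_chain {G : Type*} [Group G] {l : ℕ} (H : Fin (l + 1) → Subgroup G)
    (h0 : H 0 = ⊥)
    (hchain : ∀ i : Fin l, H i.castSucc < H i.succ ∧
      ((H i.castSucc).subgroupOf (H i.succ)).Normal) :
    ∀ i : Fin (l + 1), SerTo (H i) i := by
  intro i
  induction i using Fin.induction with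
  | zero => rw [h0]; exact SerTo.bot
  | succ j ih =>
    rw [Fin.val_succ]
    exact SerTo.step (by simpa using ih) (hchain j).1 (hchain j).2

end Cfsg.Agent.H68.CompLen
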