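import Cfsg.Agent.H68.CompLen.Socle

/-!
# Composition length of a primitive group
-/

set_option autoImplicit false

namespace Cfsg.Agent.H68.CompLen

open Subgroup

variable {G Ω : Type*} [Group G] [Finite G] [MulAction G Ω] [FaithfulSMul G Ω] [Finite Ω]

/-- Length bound through a transitive normal subgroup and a point stabiliser. -/
theorem compLen_add_le (N : Subgroup G) [N.Normal] [MulAction.IsPretransitive N Ω] (α : Ω) :
    compLen G + compLen ((MulAction.stabilizer G α).subgroupOf N) ≤
      compLen N + compLen (MulAction.stabilizer G α) := by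
  set A := MulAction.stabilizer G α with hA
  let f : A →* G ⧸ N := (QuotientGroup.mk' N).comp A.subtype
  have hf : Function.Surjective f := by
    intro y
    obtain ⟨g, rfl⟩ := QuotientGroup.mk'_surjective N y
    obtain ⟨m, hm⟩ := MulAction.exists_smul_eq N (g • α) α
    refine ⟨⟨(m : G) * g, ?_⟩, ?_⟩
    · rw [hA, MulAction.mem_stabilizer_iff, mul_smul]
      exact hm
    · show ((↑((m : G) * g)) : G ⧸ N) = (g : G ⧸ N)
      rw [QuotientGroup.mk_mul, (QuotientGroup.eq_one_iff _).2 m.2, one_mul]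
  have hker : f.ker = N.subgroupOf A := by
    ext x
    simp [f, MonoidHom.mem_ker, Subgroup.mem_subgroupOf]
  have e : f.ker ≃* A.subgroupOf N :=
    { toFun := fun x => ⟨⟨(x : A), Subgroup.mem_subgroupOf.1 (hker ▸ x.2)⟩,
        Subgroup.mem_subgroupOf.2 x.1.2⟩
      invFun := fun y => ⟨⟨((y : N) : G), Subgroup.mem_subgroupOf.1 y.2⟩,
        by rw [hker]; exact Subgroup.mem_subgroupOf.2 y.1.2⟩
      left_inv := fun _ => rfl
      right_inv := fun _ => rfl
      map_mul' := fun _ _ => rfl }
  have h1 := compLen_le_ker_add_range (QuotientGroup.mk' N)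
  have e1 : compLen (QuotientGroup.mk' N).ker = compLen N :=
    compLen_congr (MulEquiv.subgroupCongr (QuotientGroup.ker_mk' N))
  have e2 : compLen (QuotientGroup.mk' N).range = compLen (G ⧸ N) :=
    compLen_congr ((MulEquiv.subgroupCongr
      (MonoidHom.range_eq_top.2 (QuotientGroup.mk'_surjective N))).trans Subgroup.topEquiv)
  rw [e1, e2] at h1
  have h2 := compLen_ker_add_le f hf
  rw [compLen_congr e] at h2
  omega

/-- A stabiliser acts faithfully by conjugation on a transitive normal subgroup. -/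
theorem cardFactors_stabilizer_le (N : Subgroup G) [N.Normal] [MulAction.IsPretransitive N Ω]
    (α : Ω) (hN : 2 ≤ Nat.card N) :
    ArithmeticFunction.cardFactors (Nat.card (MulAction.stabilizer G α)) ≤
      ArithmeticFunction.cardFactors (Nat.card N) * Nat.log 2 (Nat.card N - 1) := by
  refine cardFactors_le_of_mulAut
    ((MulAut.conjNormal (H := N)).comp (MulAction.stabilizer G α).subtype) ?_ hN
  rw [injective_iff_map_eq_one]
  intro x hx
  refine Subtype.ext (eq_of_smul_eq_smul (α := Ω) fun ω => ?_)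
  obtain ⟨m, rfl⟩ := MulAction.exists_smul_eq N α ω
  have h1 : (x : G) * m * (x : G)⁻¹ = m := by
    have := congrArg Subtype.val (DFunLike.congr_fun hx m)
    simpa using this
  have h2 : (x : G) * m = m * x := by
    conv_rhs => rw [← h1]
    group
  rw [OneMemClass.coe_one, one_smul, Subgroup.smul_def, ← mul_smul, h2, mul_smul,
    MulAction.mem_stabilizer_iff.1 x.2]

/-- The primitive case of the bound. -/
theorem primitive_bound [MulAction.IsPreprimitive G Ω] (hn : 2 ≤ Nat.card Ω) (α : Ω)
    (hA : 3 * compLen (MulAction.stabilizer G α) + 8 ≤ 4 * Nat.card Ω) :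
    3 * compLen G + 4 ≤ 4 * Nat.card Ω := by
  classical
  have hΩ : Nontrivial Ω := (Finite.one_lt_card_iff_nontrivial).1 (by omega)
  have hG : (⊤ : Subgroup G) ≠ ⊥ := by
    intro h
    obtain ⟨a, b, hab⟩ := exists_pair_ne Ω
    obtain ⟨g, hg⟩ := MulAction.exists_smul_eq G a b
    have : g = 1 := Subgroup.mem_bot.1 (h ▸ Subgroup.mem_top g)
    exact hab (by rw [← hg, this, one_smul])
  obtain ⟨N, ⟨hNn, hN0⟩, hNmin⟩ := exists_minimal_of_wellFoundedLT
    (fun N : Subgroup G => N.Normal ∧ N ≠ ⊥) ⟨⊤, inferInstance, hG⟩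
  have hmin : ∀ M : Subgroup G, M.Normal → M ≤ N → M = ⊥ ∨ M = N := fun M hM hMN =>
    or_iff_not_imp_left.2 fun h => le_antisymm hMN (hNmin ⟨hM, h⟩ hMN)
  have hfix : MulAction.fixedPoints N Ω ≠ Set.univ := by
    intro h
    apply hN0
    rw [Subgroup.eq_bot_iff_forall]
    intro x hx
    refine eq_of_smul_eq_smul (α := Ω) fun ω => ?_
    rw [one_smul]
    exact (h ▸ Set.mem_univ ω : ω ∈ MulAction.fixedPoints N Ω) ⟨x, hx⟩
  have : MulAction.IsPretransitive N Ω :=
    MulAction.IsQuasiPreprimitive.isPretransitive_of_normal hfix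
  set A := MulAction.stabilizer G α with hAdef
  set Nα := A.subgroupOf N with hNα
  have hstep := compLen_add_le N α
  rw [← hAdef, ← hNα] at hstep
  -- the degree
  have hcardN : Nat.card N = Nat.card Ω * Nat.card Nα := by
    have h1 : (MulAction.stabilizer N α).index = Nat.card Ω := by
      rw [MulAction.index_stabilizer, MulAction.orbit_eq_univ, Set.ncard_univ]
    have h2 : MulAction.stabilizer N α = Nα := by
      ext x
      simp [hNα, hAdef, Subgroup.mem_subgroupOf, MulAction.mem_stabilizer_iff, Subgroup.smul_def]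
    rw [← h2, ← h1, mul_comm, Subgroup.card_mul_index]
  -- structure of `N`
  obtain ⟨T, s, hTs, hs, hind, hsup⟩ := H37.minimalNormal_structure N hN0 hmin
  have hsn : ∀ K ∈ s, K.Normal := fun K hK => (hs K hK).1
  have hTsimple : IsSimpleGroup T := (hs T hTs).2.1
  have hcardK : ∀ K ∈ s, Nat.card K = Nat.card T := fun K hK => by
    obtain ⟨h, hh⟩ := (hs K hK).2.2
    rw [hh]
    exact (Nat.card_congr (((MulAut.conjNormal h : N ≃* N).subgroupMap T).toEquiv)).symm
  have hcardNT : Nat.card N = Nat.card T ^ s.card := by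
    have h0 := card_finset_sup hsn hind hcardK (subset_refl s)
    have : s.sup id = ⊤ := by
      rw [← hsup, Finset.sup_eq_iSup, iSup_subtype']
      rfl
    rwa [this, Subgroup.card_top] at h0
  obtain ⟨e, -⟩ := H37.mulEquiv_pi_of_iSupIndep s hsn hind hsup
  have hcN : compLen N ≤ s.card := by
    have hiso : ∀ K : s, Nonempty ((K : Subgroup N) ≃* T) := fun K => by
      obtain ⟨h, hh⟩ := (hs K K.2).2.2
      exact ⟨(MulEquiv.subgroupCongr hh).trans ((MulAut.conjNormal h : N ≃* N).subgroupMap T).symm⟩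
    rw [compLen_congr (e.symm.trans ((MulEquiv.piCongrRight fun K => (hiso K).some).trans
      (MulEquiv.arrowCongr s.equivFin (MulEquiv.refl _))))]
    exact compLen_pi_le _
  have hT2 : 2 ≤ Nat.card T := (Finite.one_lt_card_iff_nontrivial).2 inferInstance
  have hkpos : 0 < s.card := Finset.card_pos.2 ⟨T, hTs⟩
  have hN2 : 2 ≤ Nat.card N :=
    hcardNT ▸ hT2.trans (Nat.le_self_pow hkpos.ne' _)
  -- the generic case
  have generic : compLen N ≤ compLen Nα + 1 → 3 * compLen G + 4 ≤ 4 * Nat.card Ω := fun h => by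
    omega
  have crude : ∀ M, compLen A ≤ M → 3 * (s.card + M) + 4 ≤ 4 * Nat.card Ω →
      3 * compLen G + 4 ≤ 4 * Nat.card Ω := fun M h1 h2 => by omega
  have hAcrude : compLen A ≤ ArithmeticFunction.cardFactors (Nat.card N) * Nat.log 2 (Nat.card N - 1) :=
    compLen_le_cardFactors.trans (cardFactors_stabilizer_le N α hN2)
  by_cases hk1 : s.card = 1
  · exact generic (by omega)
  by_cases habel : IsMulCommutative N
  · -- abelian socle: it is regular
    have hreg : Nα = ⊥ := by
      rw [Subgroup.eq_bot_iff_forall]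
      intro x hx
      refine Subtype.ext (eq_of_smul_eq_smul (α := Ω) fun ω => ?_)
      obtain ⟨m, rfl⟩ := MulAction.exists_smul_eq N α ω
      have hxα : x • α = α := MulAction.mem_stabilizer_iff.1 (Subgroup.mem_subgroupOf.1 hx)
      rw [OneMemClass.coe_one, one_smul]
      show x • (m • α) = m • α
      rw [← mul_smul, mul_comm' x m, mul_smul, hxα]
    rw [hreg, Subgroup.card_bot, mul_one] at hcardN
    have hTp : (Nat.card T).Prime := by
      let _ : CommGroup T := { (inferInstance : Group T) with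
        mul_comm := fun a b => Subtype.ext (mul_comm' (a : N) (b : N)) }
      exact IsSimpleGroup.prime_card
    have hΩN : ArithmeticFunction.cardFactors (Nat.card N) = s.card := by
      rw [hcardNT, ArithmeticFunction.cardFactors_pow,
        ArithmeticFunction.cardFactors_apply_prime hTp, mul_one]
    rw [hΩN] at hAcrude
    refine crude _ hAcrude ?_
    rw [← hcardN]
    exact abelian_numeric hTp hcardNT (by omega)
  -- non-abelian socle
  have hTna : ¬ ∀ a b : T, a * b = b * a := by
    intro hc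
    apply habel
    have hKc : ∀ K : s, ∀ a b : (K : Subgroup N), a * b = b * a := fun K a b => by
      obtain ⟨h, hh⟩ := (hs K K.2).2.2
      let φ := (MulEquiv.subgroupCongr hh).trans
        ((MulAut.conjNormal h : N ≃* N).subgroupMap T).symm
      exact φ.injective (by rw [map_mul, map_mul]; exact hc _ _)
    refine ⟨⟨fun a b => ?_⟩⟩
    obtain ⟨u, rfl⟩ := e.surjective a
    obtain ⟨v, rfl⟩ := e.surjective b
    rw [← map_mul, ← map_mul]
    exact congrArg e (funext fun K => hKc K _ _)
  have hT60 : 60 ≤ Nat.card T := by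
    by_contra h
    exact hTna (IsSimpleGroup.comm_iff_isSolvable.2 (H6.isSolvable_of_card_lt_sixty (not_le.1 h)))
  have hbig : ∀ j, 2 ≤ j → Nat.card N ≤ Nat.card Ω ^ 2 → Nat.card T ^ j ≤ Nat.card Ω →
      3 * compLen G + 4 ≤ 4 * Nat.card Ω := fun j hj h2 h3 => by
    have h3600 : 3600 ≤ Nat.card Ω :=
      le_trans (le_trans (by norm_num) (Nat.pow_le_pow_left hT60 2))
        (le_trans (Nat.pow_le_pow_right (by omega) hj) h3)
    set M := Nat.log 2 (Nat.card N) with hMdef
    have hM : M ≤ 2 * Nat.log 2 (Nat.card Ω) + 1 := by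
      have h4 : Nat.card Ω < 2 ^ (Nat.log 2 (Nat.card Ω) + 1) :=
        Nat.lt_pow_succ_log_self one_lt_two _
      have h5 : Nat.card N < 2 ^ (2 * Nat.log 2 (Nat.card Ω) + 2) :=
        lt_of_le_of_lt h2 (lt_of_lt_of_eq (Nat.pow_lt_pow_left h4 two_ne_zero) (by ring))
      have := Nat.log_lt_of_lt_pow (b := 2) (by omega) h5
      omega
    have hΩM : ArithmeticFunction.cardFactors (Nat.card N) ≤ M := cardFactors_le_log (by omega)
    have hk : s.card ≤ M := by
      refine Nat.le_log_of_pow_le one_lt_two ?_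
      rw [hcardNT]
      exact Nat.pow_le_pow_left hT2 _
    have hA' : compLen A ≤ M * M :=
      hAcrude.trans (Nat.mul_le_mul hΩM (Nat.log_mono_right (Nat.sub_le _ _)))
    refine crude _ hA' ?_
    have := nonabelian_numeric h3600 hM
    omega
  -- if one factor meets the stabiliser, all do
  have hconjK : ∀ K ∈ s, T ⊓ Nα ≠ ⊥ → K ⊓ Nα ≠ ⊥ := by
    intro K hK hT
    obtain ⟨h, hh⟩ := (hs K hK).2.2
    obtain ⟨m, hm⟩ := MulAction.exists_smul_eq N (h • α) α
    obtain ⟨x, hxT, hxN, hx1⟩ : ∃ x, x ∈ T ∧ x ∈ Nα ∧ x ≠ 1 := by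
      by_contra hcon
      push Not at hcon
      exact hT ((Subgroup.eq_bot_iff_forall _).2 fun x hx => hcon x hx.1 hx.2)
    set y : N := m * (MulAut.conjNormal h : N ≃* N) x * m⁻¹ with hy
    intro hbot
    have hyK : y ∈ K := (hsn K hK).conj_mem _ (hh ▸ Subgroup.mem_map_of_mem _ hxT) m
    have hyN : y ∈ Nα := by
      rw [hNα, Subgroup.mem_subgroupOf, hAdef, MulAction.mem_stabilizer_iff]
      have hxα : (x : G) • α = α :=
        MulAction.mem_stabilizer_iff.1 (Subgroup.mem_subgroupOf.1 hxN)
      have hm' : ((m : G) * h) • α = α := by rw [mul_smul]; exact hm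
      have hy' : (y : G) = ((m : G) * h) * x * ((m : G) * h)⁻¹ := by
        simp [hy, mul_assoc]
      rw [hy', mul_smul, mul_smul _ (x : G), inv_smul_eq_iff.2 hm'.symm, hxα, hm']
    have := (Subgroup.eq_bot_iff_forall _).1 hbot y ⟨hyK, hyN⟩
    rw [hy, conj_eq_one_iff, MulEquiv.map_eq_one_iff] at this
    exact hx1 this
  have hconjT : ∀ K ∈ s, T ⊓ Nα = ⊥ → K ⊓ Nα = ⊥ := by
    intro K hK hT
    obtain ⟨h, hh⟩ := (hs K hK).2.2
    obtain ⟨m, hm⟩ := MulAction.exists_smul_eq N (h⁻¹ • α) α
    rw [Subgroup.eq_bot_iff_forall]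
    rintro y ⟨hyK, hyN⟩
    obtain ⟨x, hx, hxy⟩ : y ∈ T.map (MulAut.conjNormal h : N ≃* N).toMonoidHom := hh ▸ hyK
    have hz : m * x * m⁻¹ = 1 := by
      refine (Subgroup.eq_bot_iff_forall _).1 hT _ ⟨(hsn T hTs).conj_mem _ hx m, ?_⟩
      show m * x * m⁻¹ ∈ Nα
      rw [hNα, Subgroup.mem_subgroupOf, hAdef, MulAction.mem_stabilizer_iff]
      have hyα : (y : G) • α = α :=
        MulAction.mem_stabilizer_iff.1 (Subgroup.mem_subgroupOf.1 hyN)
      have hm' : ((m : G) * h⁻¹) • α = α := by rw [mul_smul]; exact hm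
      have hy' : ((m * x * m⁻¹ : N) : G) = ((m : G) * h⁻¹) * y * ((m : G) * h⁻¹)⁻¹ := by
        rw [← hxy]; simp [mul_assoc]
      rw [hy', mul_smul, mul_smul _ (y : G), inv_smul_eq_iff.2 hm'.symm, hyα, hm']
    rw [conj_eq_one_iff] at hz
    rw [← hxy, hz, map_one]
  by_cases hmeet : T ⊓ Nα = ⊥
  swap
  · exact generic (hcN.trans ((card_le_compLen_of_meets s Nα hsn hind
      (fun K hK => hconjK K hK hmeet)).trans (Nat.le_succ _)))
  have hfree : ∀ K ∈ s, K ⊓ Nα = ⊥ := fun K hK => hconjT K hK hmeet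
  by_cases hreg : Nα = ⊥
  · rw [hreg, Subgroup.card_bot, mul_one] at hcardN
    refine hbig s.card (by omega) ?_ ?_
    · rw [hcardN]; exact Nat.le_self_pow two_ne_zero _
    · rw [← hcardN, hcardNT]
  -- the centre of the socle is trivial
  have hZ : Subgroup.center N = ⊥ := by
    have hM : ((Subgroup.center N).map N.subtype).Normal := inferInstance
    rcases hmin _ hM (Subgroup.map_subtype_le _) with h | h
    · exact (Subgroup.map_eq_bot_iff_of_injective _ N.subtype_injective).1 h
    · exfalso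
      apply habel
      have hc : Subgroup.center N = ⊤ := Subgroup.map_injective N.subtype_injective
        (h.trans (by rw [← MonoidHom.range_eq_map, Subgroup.range_subtype]))
      exact ⟨⟨fun a b => (Subgroup.mem_center_iff.1 (hc ▸ Subgroup.mem_top b) a)⟩⟩
  -- maximality of the stabiliser
  set Q : Subgroup N :=
    ⨅ (K : Subgroup N) (_ : Minimal (fun M : Subgroup N => M.Normal ∧ M ≠ ⊥) K),
      Nα ⊔ Subgroup.centralizer (K : Set N) with hQ
  have hKmin : ∀ K ∈ s, Minimal (fun M : Subgroup N => M.Normal ∧ M ≠ ⊥) K := by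
    intro K hK
    have := (hs K hK).2.1
    refine ⟨⟨hsn K hK, (Subgroup.nontrivial_iff_ne_bot K).1 inferInstance⟩, fun M hM hMK => ?_⟩
    have hsub : (M.subgroupOf K).Normal := hM.1.comap _
    rcases hsub.eq_bot_or_eq_top with h | h
    · exact absurd ((Subgroup.subgroupOf_eq_bot.1 h).eq_bot_of_le hMK) hM.2
    · exact Subgroup.subgroupOf_eq_top.1 h
  have hQinv : ∀ a ∈ A, ∀ x ∈ Q, (MulAut.conjNormal a : N ≃* N) x ∈ Q := by
    intro a ha x hx
    simp only [hQ, Subgroup.mem_iInf] at hx ⊢
    intro K hK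
    let φ : N ≃* N := MulAut.conjNormal a
    have hKφ : Minimal (fun M : Subgroup N => M.Normal ∧ M ≠ ⊥) (K.comap φ.toMonoidHom) := by
      refine ⟨⟨hK.1.1.comap _, fun h => hK.1.2 ?_⟩, fun M hM hMK => ?_⟩
      · rw [← Subgroup.map_comap_eq_self_of_surjective (f := φ.toMonoidHom) φ.surjective K, h,
          Subgroup.map_bot]
      · have h1 : K ≤ M.map φ.toMonoidHom := hK.2
          ⟨hM.1.map _ φ.surjective,
            fun h => hM.2 ((Subgroup.map_eq_bot_iff_of_injective _ φ.injective).1 h)⟩
          (Subgroup.map_le_iff_le_comap.2 hMK)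
        intro y hy
        obtain ⟨z, hz, hzy⟩ := h1 hy
        exact φ.injective hzy ▸ hz
    have h2 : Nα ⊔ Subgroup.centralizer ((K.comap φ.toMonoidHom : Subgroup N) : Set N) ≤
        (Nα ⊔ Subgroup.centralizer (K : Set N)).comap φ.toMonoidHom := by
      refine sup_le (fun y hy => Subgroup.mem_comap.2 (Subgroup.mem_sup_left ?_))
        (fun y hy => Subgroup.mem_comap.2 (Subgroup.mem_sup_right ?_))
      · rw [hNα, Subgroup.mem_subgroupOf] at hy ⊢
        show ((φ y : N) : G) ∈ A
        rw [MulAut.conjNormal_apply]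
        exact mul_mem (mul_mem ha hy) (inv_mem ha)
      · rw [Subgroup.mem_centralizer_iff] at hy ⊢
        intro k hk
        have hk' : φ.symm k ∈ K.comap φ.toMonoidHom := by
          rw [Subgroup.mem_comap]
          exact (φ.apply_symm_apply k).symm ▸ hk
        have h := congrArg φ (hy _ hk')
        rw [map_mul, map_mul, φ.apply_symm_apply] at h
        exact h
    exact h2 (hx _ hKφ)
  have hAmax : IsCoatom A := MulAction.IsPreprimitive.isCoatom_stabilizer_of_isPreprimitive G α
  have hNαQ : Nα ≤ Q := le_iInf₂ fun K _ => le_sup_left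
  have hAQ : Q ≤ Nα ∨ Q = ⊤ := by
    rcases hAmax.le_iff.1 (le_sup_left : A ≤ A ⊔ Q.map N.subtype) with h | h
    · right
      rw [eq_top_iff]
      intro x _
      have hx : (x : G) ∈ A ⊔ Q.map N.subtype := h ▸ Subgroup.mem_top _
      have hnorm : A ≤ Subgroup.normalizer ((Q.map N.subtype : Subgroup G) : Set G) := by
        intro a ha
        rw [Subgroup.mem_normalizer_iff]
        intro z
        simp only [Subgroup.mem_map, Subgroup.coe_subtype]
        constructor
        · rintro ⟨w, hw, rfl⟩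
          exact ⟨_, hQinv a ha w hw, MulAut.conjNormal_apply _ _⟩
        · rintro ⟨w, hw, hwz⟩
          refine ⟨_, hQinv a⁻¹ (inv_mem ha) w hw, ?_⟩
          rw [MulAut.conjNormal_apply, hwz]
          group
      obtain ⟨q, hq, a, ha, hqa⟩ : ∃ q ∈ Q, ∃ a ∈ A, (q : G) * a = x := by
        rw [sup_comm] at hx
        rw [← SetLike.mem_coe, Subgroup.coe_mul_of_right_le_normalizer_left _ _ hnorm] at hx
        obtain ⟨q', ⟨q, hq, rfl⟩, a, ha, h⟩ := hx
        exact ⟨q, hq, a, ha, h⟩
      have haN : q⁻¹ * x ∈ Nα := by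
        rw [hNα, Subgroup.mem_subgroupOf, Subgroup.coe_mul, Subgroup.coe_inv, ← hqa,
          inv_mul_cancel_left]
        exact ha
      simpa using mul_mem hq (hNαQ haN)
    · left
      intro x hx
      exact Subgroup.mem_subgroupOf.2 (h ▸ Subgroup.mem_sup_right (Subgroup.mem_map_of_mem _ hx))
  have hKC : ∀ K ∈ s, K ⊔ Subgroup.centralizer (K : Set N) = ⊤ := fun K hK => by
    rw [eq_top_iff, ← hsup, iSup_le_iff]
    rintro ⟨L, hL⟩
    by_cases hLK : L = K
    · exact hLK ▸ le_sup_left
    · refine le_trans ?_ le_sup_right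
      intro l hl k hk
      exact Subgroup.commute_of_normal_of_disjoint K L (hsn K hK) (hsn L hL)
        (hind.pairwiseDisjoint (show (⟨K, hK⟩ : s) ≠ ⟨L, hL⟩ by simpa using Ne.symm hLK)) k l hk hl
  have hproj : ∀ K ∈ s, Nα ⊔ Subgroup.centralizer (K : Set N) = ⊤ := by
    intro K hK
    rcases hAQ with h | h
    · exfalso
      apply hreg
      rw [eq_bot_iff, ← hZ]
      intro x hx
      rw [Subgroup.mem_center_iff]
      suffices ⊤ ≤ Subgroup.centralizer ({x} : Set N) by
        intro g
        exact Subgroup.mem_centralizer_singleton_iff.1 (this (Subgroup.mem_top g))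
      rw [← hsup, iSup_le_iff]
      rintro ⟨L, hL⟩ l hl
      rw [Subgroup.mem_centralizer_singleton_iff]
      have := hsn L hL
      obtain ⟨k, hk, c, hc, hkc⟩ :=
        Subgroup.mem_sup_of_normal_right.1 ((hKC L hL).symm ▸ Subgroup.mem_top x)
      have hkQ : k ∈ Q := by
        simp only [hQ, Subgroup.mem_iInf]
        intro M hM
        by_cases hML : M = L
        · subst hML
          have : k = x * c⁻¹ := by rw [← hkc]; group
          rw [this]
          exact mul_mem (Subgroup.mem_sup_left hx) (Subgroup.mem_sup_right (inv_mem hc))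
        · refine Subgroup.mem_sup_right (Subgroup.mem_centralizer_iff.2 fun y hy => ?_)
          refine Subgroup.commute_of_normal_of_disjoint M L hM.1.1 (hsn L hL) ?_ y k hy hk
          rw [disjoint_iff]
          by_contra hne
          have := hM.1.1
          have := hsn L hL
          have hMI : Minimal (fun M : Subgroup N => M.Normal ∧ M ≠ ⊥) L := hKmin L hL
          exact hML (le_antisymm ((hM.2 ⟨inferInstance, hne⟩ inf_le_left).trans inf_le_right)
            ((hMI.2 ⟨inferInstance, hne⟩ inf_le_right).trans inf_le_left))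
      have hk1 : k = 1 := (Subgroup.eq_bot_iff_forall _).1 (hfree L hL) k ⟨hk, h hkQ⟩
      rw [hk1, one_mul] at hkc
      subst hkc
      exact Subgroup.mem_centralizer_iff.1 hc l hl
    · exact top_le_iff.1 (h ▸ iInf₂_le K (hKmin K hK))
  obtain ⟨S, hS, hSne, h1, h2, h3⟩ := exists_complement s Nα hsn (fun K hK => (hs K hK).2.1)
    ⟨T, hTs⟩ hind hsup hcardK hZ hfree hproj
  have hΩS : Nat.card Ω = Nat.card T ^ S.card := by
    have : Nat.card Nα * Nat.card Ω = Nat.card Nα * Nat.card T ^ S.card := by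
      rw [← h1, hcardN, mul_comm]
    exact Nat.eq_of_mul_eq_mul_left Nat.card_pos this
  have h0 : 0 < S.card := Finset.card_pos.2 hSne
  by_cases hS1 : S.card = 1
  · refine generic ?_
    rw [hS1] at h3
    have hk : s.card ≤ 2 := by
      have := Nat.pow_le_pow_iff_right (show 1 < Nat.card T by omega) |>.1 h3
      omega
    have hpos : 1 ≤ compLen Nα := by
      have : Nontrivial Nα := (Subgroup.nontrivial_iff_ne_bot Nα).2 hreg
      exact le_compLen (SerTo.step SerTo.bot bot_lt_top inferInstance)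
    omega
  · refine hbig S.card (by omega) ?_ hΩS.ge
    rw [hcardN, sq]
    refine Nat.mul_le_mul le_rfl ?_
    rw [h2, hΩS]
    exact h3

end Cfsg.Agent.H68.CompLen
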