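import Cfsg.Agent.H68.CompLen.Crude
import Cfsg.Agent.H37.MinimalNormal
import Cfsg.Agent.H6.SmallOrder

/-!
# A point stabiliser meeting the socle of a primitive group
-/

set_option autoImplicit false

namespace Cfsg.Agent.H68.CompLen

open Subgroup
open scoped ArithmeticFunction.Omega

section family

variable {N : Type*} [Group N]

theorem normal_finset_sup {t : Finset (Subgroup N)} (hn : ∀ K ∈ t, K.Normal) :
    (t.sup id).Normal := by
  rw [Finset.sup_eq_iSup]
  exact Subgroup.biSup_normal (↑t : Set (Subgroup N)) id fun K hK => hn K hK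

theorem disjoint_finset_sup {s : Finset (Subgroup N)}
    (hind : iSupIndep (fun K : s => (K : Subgroup N))) {K : Subgroup N} (hK : K ∈ s)
    {t : Finset (Subgroup N)} (ht : t ⊆ s) (hKt : K ∉ t) : Disjoint K (t.sup id) := by
  refine (hind ⟨K, hK⟩).mono_right (Finset.sup_le fun L hL => ?_)
  refine le_iSup₂_of_le (⟨L, ht hL⟩ : s) ?_ le_rfl
  intro h
  have hLK : L = K := congrArg Subtype.val h
  exact hKt (hLK ▸ hL)

theorem card_sup_of_disjoint [Finite N] {A B : Subgroup N} [B.Normal] (hd : Disjoint A B) :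
    Nat.card ↥(A ⊔ B) = Nat.card A * Nat.card B := by
  rw [← Nat.card_prod]
  refine (Nat.card_eq_of_bijective
    (fun x : A × B => (⟨(x.1 : N) * x.2, Subgroup.mul_mem_sup x.1.2 x.2.2⟩ : ↥(A ⊔ B))) ⟨?_, ?_⟩).symm
  · intro x y hxy
    exact Subgroup.mul_injective_of_disjoint hd (congrArg Subtype.val hxy)
  · rintro ⟨z, hz⟩
    obtain ⟨a, ha, b, hb, rfl⟩ := Subgroup.mem_sup_of_normal_right.1 hz
    exact ⟨(⟨a, ha⟩, ⟨b, hb⟩), rfl⟩

theorem card_finset_sup [Finite N] {s : Finset (Subgroup N)} (hn : ∀ K ∈ s, K.Normal)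
    (hind : iSupIndep (fun K : s => (K : Subgroup N))) {m : ℕ}
    (hcard : ∀ K ∈ s, Nat.card K = m) {t : Finset (Subgroup N)} (ht : t ⊆ s) :
    Nat.card (t.sup id : Subgroup N) = m ^ t.card := by
  classical
  induction t using Finset.induction with
  | empty => simp
  | @insert K t hK ih =>
    rw [Finset.insert_subset_iff] at ht
    have hTn : (t.sup id).Normal := normal_finset_sup fun L hL => hn L (ht.2 hL)
    rw [Finset.sup_insert, Finset.card_insert_of_notMem hK, id_eq,
      card_sup_of_disjoint (disjoint_finset_sup hind ht.1 ht.2 hK), ih ht.2, hcard K ht.1, pow_succ']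

variable [Finite N] (s : Finset (Subgroup N)) (Nα : Subgroup N)

/-- If the subgroup meets every factor, it has a series as long as the number of factors. -/
theorem card_le_compLen_of_meets (hn : ∀ K ∈ s, K.Normal)
    (hind : iSupIndep (fun K : s => (K : Subgroup N))) (hmeet : ∀ K ∈ s, K ⊓ Nα ≠ ⊥) :
    s.card ≤ compLen Nα := by
  classical
  suffices ∀ t ⊆ s, ∃ n, t.card ≤ n ∧ SerTo ((t.sup id).subgroupOf Nα) n by
    obtain ⟨n, h1, h2⟩ := this s subset_rfl
    by_cases htop : (s.sup id).subgroupOf Nα = ⊤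
    · rw [htop] at h2
      exact h1.trans (le_compLen h2)
    · have hT : ((s.sup id).subgroupOf Nα).Normal := (normal_finset_sup hn).comap _
      exact (h1.trans (Nat.le_succ n)).trans
        (le_compLen (h2.step (lt_top_iff_ne_top.2 htop) (hT.comap _)))
  intro t
  induction t using Finset.induction with
  | empty =>
    intro _
    refine ⟨0, le_rfl, ?_⟩
    rw [Finset.sup_empty, Subgroup.bot_subgroupOf]
    exact SerTo.bot
  | @insert K t hK ih =>
    intro ht
    rw [Finset.insert_subset_iff] at ht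
    obtain ⟨n, h1, h2⟩ := ih ht.2
    refine ⟨n + 1, by rw [Finset.card_insert_of_notMem hK]; omega, h2.step ?_ ?_⟩
    · refine lt_of_le_of_ne (Subgroup.comap_mono (Finset.sup_mono (Finset.subset_insert _ _))) ?_
      intro he
      apply hmeet K ht.1
      rw [Subgroup.eq_bot_iff_forall]
      rintro x ⟨hxK, hxN⟩
      have hmem : (⟨x, hxN⟩ : Nα) ∈ ((insert K t).sup id).subgroupOf Nα :=
        Subgroup.mem_subgroupOf.2 (Finset.le_sup (f := id) (Finset.mem_insert_self K t) hxK)
      rw [← he] at hmem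
      exact Subgroup.mem_bot.1
        ((disjoint_finset_sup hind ht.1 ht.2 hK).eq_bot ▸ ⟨hxK, Subgroup.mem_subgroupOf.1 hmem⟩)
    · exact ((normal_finset_sup fun L hL => hn L (ht.2 hL)).comap _).comap _

/-- If the subgroup meets no factor but is not contained in any proper product `Nα C(K)`,
then the product of all factors has order at most the square of a subproduct on which the
subgroup is trivial. -/
theorem exists_complement (hn : ∀ K ∈ s, K.Normal) (hsimple : ∀ K ∈ s, IsSimpleGroup K)
    (hne : s.Nonempty) (hind : iSupIndep (fun K : s => (K : Subgroup N)))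
    (hsup : ⨆ K : s, (K : Subgroup N) = ⊤) {m : ℕ} (hcard : ∀ K ∈ s, Nat.card K = m)
    (hZ : Subgroup.center N = ⊥) (hfree : ∀ K ∈ s, K ⊓ Nα = ⊥)
    (hproj : ∀ K ∈ s, Nα ⊔ Subgroup.centralizer (K : Set N) = ⊤) :
    ∃ S ⊆ s, S.Nonempty ∧ Nat.card N = Nat.card Nα * m ^ S.card ∧
      Nat.card Nα = m ^ (s.card - S.card) ∧ m ^ (s.card - S.card) ≤ m ^ S.card := by
  classical
  obtain ⟨K₀, hK₀⟩ := hne
  have hex : ∃ S : Finset (Subgroup N), K₀ ∈ S ∧ S ⊆ s ∧ S.sup id ⊓ Nα = ⊥ :=
    ⟨{K₀}, Finset.mem_singleton_self _, Finset.singleton_subset_iff.2 hK₀, by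
      simpa using hfree K₀ hK₀⟩
  obtain ⟨S, ⟨hK₀S, hSs, hS⟩, hmax⟩ := exists_maximal_of_wellFoundedGT
    (fun S : Finset (Subgroup N) => K₀ ∈ S ∧ S ⊆ s ∧ S.sup id ⊓ Nα = ⊥) hex
  set U := S.sup id with hU
  have hUn : U.Normal := normal_finset_sup fun K hK => hn K (hSs hK)
  have hcomm : ∀ K ∈ s, ∀ L ∈ s, K ≠ L → L ≤ Subgroup.centralizer (K : Set N) := by
    intro K hK L hL hKL l hl k hk
    exact Subgroup.commute_of_normal_of_disjoint K L (hn K hK) (hn L hL)
      (hind.pairwiseDisjoint (show (⟨K, hK⟩ : s) ≠ ⟨L, hL⟩ by simpa using hKL)) k l hk hl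
  -- every factor lies in `Nα U`
  have hKle : ∀ K ∈ s, K ≤ Nα ⊔ U := by
    intro K hK
    by_cases hKS : K ∈ S
    · exact (Finset.le_sup (f := id) hKS).trans le_sup_right
    have hd := disjoint_finset_sup hind hK hSs hKS
    have hnot : (insert K S).sup id ⊓ Nα ≠ ⊥ := fun h => hKS
      (hmax ⟨Finset.mem_insert_of_mem hK₀S, Finset.insert_subset hK hSs, h⟩
        (Finset.subset_insert _ _) (Finset.mem_insert_self _ _))
    rw [Finset.sup_insert, id_eq] at hnot
    obtain ⟨z, hzKU, hzN, hz1⟩ : ∃ z, z ∈ K ⊔ U ∧ z ∈ Nα ∧ z ≠ 1 := by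
      by_contra hcon
      push Not at hcon
      exact hnot ((Subgroup.eq_bot_iff_forall _).2 fun z hz => hcon z hz.1 hz.2)
    obtain ⟨k, hk, u, hu, hku⟩ := Subgroup.mem_sup_of_normal_right.1 hzKU
    have hkP : k ∈ Nα ⊔ U := by
      have : k = z * u⁻¹ := by rw [← hku]; group
      rw [this]
      exact mul_mem (Subgroup.mem_sup_left hzN) (Subgroup.mem_sup_right (inv_mem hu))
    have hk1 : k ≠ 1 := by
      rintro rfl
      rw [one_mul] at hku
      exact hz1 ((Subgroup.eq_bot_iff_forall _).1 hS z ⟨hku ▸ hu, hzN⟩)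
    have hKn := hn K hK
    have hPn : (K ⊓ (Nα ⊔ U)).Normal := by
      rw [← Subgroup.normalizer_eq_top_iff, eq_top_iff, ← hproj K hK, sup_le_iff]
      constructor
      · intro g hg
        rw [Subgroup.mem_normalizer_iff]
        have hgP : g ∈ Nα ⊔ U := Subgroup.mem_sup_left hg
        intro h
        simp only [Subgroup.mem_inf, SetLike.mem_coe]
        constructor
        · exact fun hh => ⟨hKn.conj_mem h hh.1 g, mul_mem (mul_mem hgP hh.2) (inv_mem hgP)⟩
        · intro hh
          constructor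
          · have := hKn.conj_mem _ hh.1 g⁻¹
            simpa [mul_assoc] using this
          · have := mul_mem (mul_mem (inv_mem hgP) hh.2) hgP
            simpa [mul_assoc] using this
      · intro g hg
        rw [Subgroup.mem_normalizer_iff]
        intro h
        simp only [Subgroup.mem_inf, SetLike.mem_coe]
        constructor
        · intro hh
          have e : g * h * g⁻¹ = h := by
            rw [← (Subgroup.mem_centralizer_iff.1 hg h hh.1), mul_inv_cancel_right]
          rwa [e]
        · intro hh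
          have e : g * h * g⁻¹ = h := by
            have h2 := Subgroup.mem_centralizer_iff.1 hg _ hh.1
            have h3 : g * h = g * (g * h * g⁻¹) := by rw [← h2]; group
            exact (mul_left_cancel h3).symm
          rwa [e] at hh
    have := hsimple K hK
    have hsub : ((K ⊓ (Nα ⊔ U)).subgroupOf K).Normal := hPn.comap _
    rcases hsub.eq_bot_or_eq_top with h | h
    · refine absurd ?_ hk1
      have h' : (⟨k, hk⟩ : K) ∈ (K ⊓ (Nα ⊔ U)).subgroupOf K :=
        Subgroup.mem_subgroupOf.2 ⟨hk, hkP⟩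
      rw [h, Subgroup.mem_bot] at h'
      exact congrArg Subtype.val h'
    · exact (Subgroup.subgroupOf_eq_top.1 h).trans inf_le_right
  have htop : Nα ⊔ U = ⊤ := top_le_iff.1 (hsup ▸ iSup_le fun K => hKle K K.2)
  -- the complementary product meets `Nα` trivially
  set V := (s \ S).sup id with hV
  have hVn : V.Normal := normal_finset_sup fun K hK => hn K (Finset.sdiff_subset hK)
  have hVC : ∀ K ∈ S, V ≤ Subgroup.centralizer (K : Set N) := fun K hK =>
    Finset.sup_le fun L hL => hcomm K (hSs hK) L (Finset.sdiff_subset hL) fun e =>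
      (Finset.mem_sdiff.1 hL).2 (e ▸ hK)
  have hUV : U ≤ Subgroup.centralizer (V : Set N) :=
    Finset.sup_le fun K hK => Subgroup.le_centralizer_iff.1 (hVC K hK)
  have hbot : Nα ⊓ V = ⊥ := by
    rw [Subgroup.eq_bot_iff_forall]
    rintro b ⟨hbN, hbV⟩
    have hb : b ∈ Subgroup.center N := by
      rw [Subgroup.mem_center_iff]
      suffices ⊤ ≤ Subgroup.centralizer ({b} : Set N) by
        intro g
        exact (Subgroup.mem_centralizer_singleton_iff.1 (this (Subgroup.mem_top g)))
      rw [← hsup, iSup_le_iff]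
      rintro ⟨K, hK⟩ x hx
      rw [Subgroup.mem_centralizer_singleton_iff]
      by_cases hKS : K ∈ S
      · exact Subgroup.mem_centralizer_iff.1 (hVC K hKS hbV) x hx
      obtain ⟨a, ha, u, hu, hau⟩ := Subgroup.mem_sup_of_normal_right.1 (hKle K hK hx)
      have hub : u * b = b * u := (Subgroup.mem_centralizer_iff.1 (hUV hu) b hbV).symm
      have key : a * b * a⁻¹ * b⁻¹ = x * b * x⁻¹ * b⁻¹ := by
        have ha' : a = x * u⁻¹ := by rw [← hau]; group
        have hub' : u⁻¹ * b * u = b := by rw [mul_assoc, ← hub]; group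
        calc a * b * a⁻¹ * b⁻¹ = x * (u⁻¹ * b * u) * x⁻¹ * b⁻¹ := by rw [ha']; group
          _ = x * b * x⁻¹ * b⁻¹ := by rw [hub']
      have h1 : x * b * x⁻¹ * b⁻¹ ∈ Nα :=
        key ▸ mul_mem (mul_mem (mul_mem ha hbN) (inv_mem ha)) (inv_mem hbN)
      have h2 : x * b * x⁻¹ * b⁻¹ ∈ K := by
        have := mul_mem hx ((hn K hK).conj_mem _ (inv_mem hx) b)
        simpa [mul_assoc] using this
      have h3 := (Subgroup.eq_bot_iff_forall _).1 (hfree K hK) _ ⟨h2, h1⟩
      exact mul_inv_eq_iff_eq_mul.1 (mul_inv_eq_one.1 h3)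
    rwa [hZ, Subgroup.mem_bot] at hb
  have hU' : Nat.card U = m ^ S.card := card_finset_sup hn hind hcard hSs
  have hV' : Nat.card V = m ^ (s.card - S.card) := by
    rw [card_finset_sup hn hind hcard Finset.sdiff_subset, Finset.card_sdiff_of_subset hSs]
  have hN : Nat.card N = m ^ s.card := by
    have h0 := card_finset_sup hn hind hcard (subset_refl s)
    have : s.sup id = ⊤ := by
      rw [← hsup, Finset.sup_eq_iSup, iSup_subtype']
      rfl
    rwa [this, Subgroup.card_top] at h0
  have hm : 0 < m := hcard K₀ hK₀ ▸ Nat.card_pos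
  have h1 : Nat.card N = Nat.card Nα * m ^ S.card := by
    rw [← hU', ← card_sup_of_disjoint (disjoint_iff.2 (by rw [inf_comm]; exact hS)), htop,
      Subgroup.card_top]
  have h2 : Nat.card Nα = m ^ (s.card - S.card) := by
    rw [hN] at h1
    refine Nat.eq_of_mul_eq_mul_right (pow_pos hm S.card) (h1.symm.trans ?_)
    rw [← pow_add, Nat.sub_add_cancel (Finset.card_le_card hSs)]
  refine ⟨S, hSs, ⟨K₀, hK₀S⟩, h1, h2, ?_⟩
  have h3 : Nat.card Nα * Nat.card V ≤ Nat.card N := by
    rw [← card_sup_of_disjoint (disjoint_iff.2 hbot)]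
    exact Subgroup.card_le_card_group _
  rw [hV', h1] at h3
  exact Nat.le_of_mul_le_mul_left h3 Nat.card_pos

end family

end Cfsg.Agent.H68.CompLen
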